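import Cfsg.Agent.H156.SqBlk
import Cfsg.Agent.Nodes.WittInst
import Cfsg.Agent.H53.HC.RgdLevi
import Cfsg.Agent.H892.EP.Good

/-!
# S4929, [TA-CL]: the subgroup `M_J` of the first nodes of a Witt frame is a quotient of `SL_d(F)` by a subgroup of
exponent at most two
-/

set_option autoImplicit false
set_option linter.unusedSectionVars false

namespace Cfsg.Agent.H537.EP

open Matrix
open CoxeterSystem Cfsg.Agent.ChevalleyStructure.CoxeterGeom Cfsg.Agent.Tits.Roots Cfsg.Agent.Tits.Core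
  Cfsg.Agent.Nodes.Reps Cfsg.Agent.Nodes.BNOf Cfsg.Agent.Nodes.StabComb Cfsg.Agent.Nodes.RGDLib
open Cfsg.Agent.Nodes
open Cfsg.Agent.TitsThree.Siegel Cfsg.Agent.TitsThree.WittFrame Cfsg.Agent.TitsThree.WittWeyl
open Cfsg.Agent.Nodes.WittRoot (XG)
open Cfsg.Agent.H156.SqPhi Cfsg.Agent.H156.SqBlk
open Cfsg.Agent.H53.HC (MJ)

universe u

variable {F : Type} [Field F] {V : Type*} [AddCommGroup V] [Module F V] {H : HForm F V} {N k : ℕ}
  {Fr : Frame H (Fin N)} {G0 : Subgroup (V ≃ₗ[F] V)}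

/-- `A` acting as a scalar on every vector: `A * A = 1`. -/
theorem sq_of_scalar {ι : Fin k → Fin N} (hι : Function.Injective ι) (A : GL (Fin k) F)
    (hA : ∀ v : V, ∃ a : F, Phi Fr hι A v = a • v) : A * A = 1 := by
  apply Units.ext
  rw [Units.val_mul, Units.val_one]
  have key : ∀ i, (A.1 * A.1) *ᵥ (Pi.single i 1) = Pi.single i (1 : F) := by
    intro i
    obtain ⟨a, ha⟩ := hA (eT Fr ι (Pi.single i 1) + eF Fr ι (Pi.single i 1))
    have hT : ∀ v, cT Fr ι (Phi Fr hι A v) = A.1 *ᵥ cT Fr ι v := fun v => cT_LM Fr hι _ _ v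
    have hF : ∀ v, cF Fr ι (Phi Fr hι A v) = (A⁻¹).1ᵀ *ᵥ cF Fr ι v := fun v => cF_LM Fr hι _ _ v
    have h1 := hT (eT Fr ι (Pi.single i 1) + eF Fr ι (Pi.single i 1))
    have h2 := hF (eT Fr ι (Pi.single i 1) + eF Fr ι (Pi.single i 1))
    rw [ha, map_smul, map_add, cT_eT Fr hι, cT_eF, add_zero] at h1
    rw [ha, map_smul, map_add, cF_eT, cF_eF Fr hι, zero_add] at h2
    have h3 : (A.1 *ᵥ Pi.single i 1) ⬝ᵥ ((A⁻¹).1ᵀ *ᵥ Pi.single i 1) = (1 : F) := by
      rw [dotProduct_mulVec, ← vecMul_transpose, vecMul_vecMul, ← transpose_mul, ← Units.val_mul, inv_mul_cancel,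
        Units.val_one, transpose_one, vecMul_one, dotProduct_single, Pi.single_eq_same, mul_one]
    rw [← h1, ← h2, smul_dotProduct, dotProduct_smul, dotProduct_single, Pi.single_eq_same, mul_one, smul_eq_mul,
      smul_eq_mul, mul_one] at h3
    rw [← mulVec_mulVec, ← h1, mulVec_smul, ← h1, smul_smul, h3, one_smul]
  ext i j
  have h4 := congrFun (key j) i
  rw [mulVec_single_one] at h4
  rw [Matrix.one_apply]
  rw [Pi.single_apply] at h4
  exact h4

variable {K : Type u} [Group K]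

variable {W : Type*} [Group W] {M : CoxeterMatrix (Fin N)}
  {cs : CoxeterSystem M W} {A : Fin N → Fin N → ℤ} {h : IsCartan M A} {rg : (Fin N → ℤ) → Subgroup (V ≃ₗ[F] V)}

/-- the range of `SL_d(F) → K` is `M_J`. -/
theorem range_eq {ι : Fin (k + 2) → Fin N} (hι : Function.Injective ι) (hσ : ∀ c, H.σ c = c) {J : Set (Fin N)}
    (hX : ∀ a b t, Fr.X a b t ∈ G0) (φ : ↥G0 →* K)
    (hJ1 : ∀ i j : Fin (k + 2), i ≠ j → ∃ r ∈ RootsJ cs h J, rg r = XG Fr (ι i, true) (ι j, false))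
    (hJ2 : ∀ r ∈ PosJ cs h J, ∃ i j : Fin (k + 2), i < j ∧ rg r = XG Fr (ι i, true) (ι j, false) ∧
      rg (-r) = XG Fr (ι j, true) (ι i, false)) :
    (φ.comp (phi hι hσ hX)).range = MJ cs h (fun x => ((rg x).subgroupOf G0).map φ) J := by
  have mem : ∀ {i j : Fin (k + 2)} (hij : i ≠ j) (g : ↥G0), (g : V ≃ₗ[F] V) ∈ XG Fr (ι i, true) (ι j, false) →
      φ g ∈ (φ.comp (phi hι hσ hX)).range := by
    intro i j hij g hg
    obtain ⟨t, ht⟩ := hg
    refine ⟨SpecialLinearGroup.transvection hij t, ?_⟩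
    rw [MonoidHom.comp_apply]
    congr 1
    apply Subtype.ext
    rw [phi_transvection]
    exact ht.symm
  apply le_antisymm
  · rw [MonoidHom.range_eq_map, ← Cfsg.Agent.LieClassical.SLGen.closure_transvections, MonoidHom.map_closure,
      Subgroup.closure_le]
    rintro _ ⟨_, ⟨i, j, hij, c, rfl⟩, rfl⟩
    obtain ⟨r, hr, e⟩ := hJ1 i j hij
    refine RGD.le_Sup (X := fun x => ((rg x).subgroupOf G0).map φ) hr ?_
    refine ⟨phi hι hσ hX (SpecialLinearGroup.transvection hij c), ?_, rfl⟩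
    change (phi hι hσ hX (SpecialLinearGroup.transvection hij c) : ↥G0) ∈ (rg r).subgroupOf G0
    rw [Subgroup.mem_subgroupOf, phi_transvection, e]
    exact ⟨c, rfl⟩
  · refine RGD.Sup_le fun x hx => ?_
    rintro _ ⟨g, hg, rfl⟩
    have hg' : (g : V ≃ₗ[F] V) ∈ rg x := Subgroup.mem_subgroupOf.1 hg
    rcases hx.1.pos_or_neg with h0 | h0
    · obtain ⟨i, j, hij, e, -⟩ := hJ2 x ⟨hx.1, h0, hx.2⟩
      rw [e] at hg'
      exact mem hij.ne g hg'
    · obtain ⟨i, j, hij, -, e⟩ := hJ2 (-x) ⟨hx.1.neg, by simpa using h0, fun l hl => by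
        rw [Pi.neg_apply, hx.2 l hl, neg_zero]⟩
      rw [_root_.neg_neg] at e
      rw [e] at hg'
      exact mem hij.ne' g hg'

variable [Finite K] [Finite F] {p r : ℕ} [Fact p.Prime] [Fact r.Prime]

/-- `Good` for `M_J` -/
theorem good_MJ (hp2 : p ≠ 2) {ι : Fin (k + 2) → Fin N} (hι : Function.Injective ι) (hσ : ∀ c, H.σ c = c)
    {J : Set (Fin N)} (hX : ∀ a b t, Fr.X a b t ∈ G0) (φ : ↥G0 →* K)
    (hker : ∀ (v : V) (g : ↥G0), φ g = 1 → ∃ a : F, (g : V ≃ₗ[F] V) v = a • v)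
    (hJ1 : ∀ i j : Fin (k + 2), i ≠ j → ∃ r ∈ RootsJ cs h J, rg r = XG Fr (ι i, true) (ι j, false))
    (hJ2 : ∀ r ∈ PosJ cs h J, ∃ i j : Fin (k + 2), i < j ∧ rg r = XG Fr (ι i, true) (ι j, false) ∧
      rg (-r) = XG Fr (ι j, true) (ι i, false))
    (hg : H892.EP.Good p r (SpecialLinearGroup (Fin (k + 2)) F)) :
    H892.EP.Good p r ↥(MJ cs h (fun x => ((rg x).subgroupOf G0).map φ) J) := by
  rw [← range_eq hι hσ hX φ hJ1 hJ2]
  refine H892.EP.Good.quot (φ.comp (phi hι hσ hX)).rangeRestrict (MonoidHom.rangeRestrict_surjective _) ?_ hg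
  rw [MonoidHom.ker_rangeRestrict]
  intro hd
  obtain ⟨x, hx⟩ := exists_prime_orderOf_dvd_card' p hd
  have h1 : x * x = 1 := by
    apply Subtype.ext
    rw [Subgroup.coe_mul, Subgroup.coe_one]
    have hx1 : φ (phi hι hσ hX (x : SpecialLinearGroup (Fin (k + 2)) F)) = 1 := x.2
    have h2 := sq_of_scalar (Fr := Fr) hι ((x : SpecialLinearGroup (Fin (k + 2)) F) : GL (Fin (k + 2)) F)
      (fun v => hker v _ hx1)
    apply Subtype.ext
    exact congrArg Units.val h2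
  have h3 : orderOf x ∣ 2 := orderOf_dvd_of_pow_eq_one (by rw [pow_two]; exact h1)
  rw [hx] at h3
  exact hp2 ((Nat.prime_dvd_prime_iff_eq Fact.out Nat.prime_two).1 h3)

end Cfsg.Agent.H537.EP
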