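import Cfsg.Agent.H537.EP.TAMJ
import Cfsg.Agent.H537.EP.OfMJ

/-!
# S4929, [TA-CL]: `Good` for `PSp_2m`, `PΩ_(2m+1)`, `PΩ^±_2m` from `SL_d(F)`
-/

set_option autoImplicit false
set_option linter.unusedSectionVars false

namespace Cfsg.Agent.H537.EP

open Matrix
open CoxeterSystem Cfsg.Agent.ChevalleyStructure.CoxeterGeom Cfsg.Agent.Tits.Roots Cfsg.Agent.Tits.Core
  Cfsg.Agent.Nodes.Reps Cfsg.Agent.Nodes.BNOf Cfsg.Agent.Nodes.StabComb Cfsg.Agent.Nodes.RGDLib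
open Cfsg.Agent.Nodes
open Cfsg.Agent.TitsThree.Siegel Cfsg.Agent.TitsThree.WittFrame Cfsg.Agent.TitsThree.WittWeyl
open Cfsg.Agent.Nodes.WittRoot (XG)
open Cfsg.Agent.H156.SqPhi Cfsg.Agent.H156.SqBlk
open Cfsg.Agent.H53.HC (MJ)

universe u

section frames

variable {F : Type} [Field F] {V : Type*} [AddCommGroup V] [Module F V] {H : HForm F V}
  {K : Type u} [Group K] [Finite K] [Finite F] [Finite V] {p r : ℕ} [Fact p.Prime] [Fact r.Prime] [CharP F r]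

/-- type `C_n` -/
theorem good_C (hp2 : p ≠ 2) {n d : ℕ} (hd : 2 ≤ d) (hdn : d ≤ n) {Fr : Frame H (Fin n)}
    (M : Cfsg.Agent.TitsThree.FrameCN.Model Fr K) (hA : WittAll.AmbT Fr r M.I) {p0 : Fr.Adm} (hp0 : p0.c ≠ 0)
    (hσ : ∀ c, H.σ c = c) (hg : H892.EP.Good p r (SpecialLinearGroup (Fin d) F)) : H892.EP.Good p r K := by
  have : Finite (CoxeterMatrix.B n).Group := TypeC.finite_W (CoxeterMatrix.B n).toCoxeterSystem
  exact good_of_MJ (WittAll.rgdC_model M hA hp0 (CoxeterMatrix.B n).toCoxeterSystem)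
    (WittModel.G1_eq_top M (by omega) (CoxeterMatrix.B n).toCoxeterSystem) (JJ n d)
    (goodMJ_C hp2 hd hdn M hσ (CoxeterMatrix.B n).toCoxeterSystem hg)

end frames

/-! ### the groups -/

variable {F : Type} [Field F] [Fintype F] {r : ℕ} [Fact r.Prime] [CharP F r] {p : ℕ} [Fact p.Prime]

theorem good_psp (hp2 : p ≠ 2) {m d : ℕ} (hm : 2 ≤ m) (hd : 2 ≤ d) (hdn : d ≤ m)
    (h : H892.EP.Good p r (SpecialLinearGroup (Fin d) F)) : H892.EP.Good p r (PSp m F) :=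
  good_C hp2 hd hdn (TitsThree.KInstSp.model m F) (WittAll.AmbT.of_amb WittU.amb_Sp r)
    (p0 := TitsThree.SpIdent.adm 1) one_ne_zero (fun _ => rfl) h

section orth

open QuadraticMap
open Cfsg.Agent.LieClassical Cfsg.Agent.LieClassical.OrthCore Cfsg.Agent.LieClassical.OrthTrans
open Cfsg.Agent.LieClassical.OrthSimple Cfsg.Agent.LieClassical.OrthFinite Cfsg.Agent.LieClassical.OrthForms
open Cfsg.Agent.TitsThree Cfsg.Agent.TitsThree.KSideO Cfsg.Agent.TitsThree.StdData Cfsg.Agent.TitsThree.WBridge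
open Cfsg.Agent.Nodes.WittInst Cfsg.Agent.Nodes.WittAll

theorem two_ne (hr : r ≠ 2) : (2 : F) ≠ 0 := by
  intro h0
  have h1 : r ∣ 2 := (CharP.cast_eq_zero_iff F r 2).1 (by exact_mod_cast h0)
  exact hr ((Nat.prime_dvd_prime_iff_eq Fact.out Nat.prime_two).1 h1)

theorem good_oodd (hr : r ≠ 2) (hp2 : p ≠ 2) {m d : ℕ} (hm : 3 ≤ m) (hd : 2 ≤ d) (hdn : d ≤ m)
    (h : H892.EP.Good p r (SpecialLinearGroup (Fin d) F)) :
    H892.EP.Good p r (POmega F (quadFormOdd m F)) := by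
  have h2 : (2 : F) ≠ 0 := two_ne hr
  rw [← coe_oddForm]
  have hG : Good (oddForm m F) := by
    apply good_of_finite (nondeg_oddForm m F h2)
    rw [Module.finrank_fintype_fun_eq_card, Fintype.card_sum, Fintype.card_sum, Fintype.card_fin,
      Fintype.card_unit]
    omega
  have hp : ((embOdd m F).ngt ⟨1, -1 ^ 2, rfl⟩).c ≠ 0 := by
    change (1 : F)⁻¹ * (-1 ^ 2) ≠ 0
    simp
  exact good_C hp2 hd hdn (model (wodd m F) hG ⟨_, hp⟩) (AmbT.of_amb (amb_O_of_two _ h2) r) hp (fun _ => rfl) h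

theorem good_ominus (hr : r ≠ 2) (hp2 : p ≠ 2) {m d : ℕ} (hm : 4 ≤ m) (a b : F)
    (hab : ∀ z₁ z₂ : F, z₁ ^ 2 + a * z₁ * z₂ + b * z₂ ^ 2 = 0 → z₁ = 0 ∧ z₂ = 0) (hd : 2 ≤ d) (hdn : d ≤ m - 1)
    (h : H892.EP.Good p r (SpecialLinearGroup (Fin d) F)) :
    H892.EP.Good p r (POmega F (quadFormMinus (m - 1) F a b)) := by
  have h2 : (2 : F) ≠ 0 := two_ne hr
  rw [← coe_minusForm]
  have hG : Good (minusForm (m - 1) F a b) := by
    apply good_of_finite (nondeg_minusForm (m - 1) F a b hab)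
    rw [Module.finrank_fintype_fun_eq_card, Fintype.card_sum, Fintype.card_sum, Fintype.card_fin,
      Fintype.card_fin]
    omega
  have hp : ((embMinus (m - 1) F a b hab).ngt ⟨(1, 0), -nf a b (1, 0), rfl⟩).c ≠ 0 := by
    change (1 : F)⁻¹ * (-nf a b (1, 0)) ≠ 0
    simp [nf]
  exact good_C hp2 hd hdn (model (wminus (m - 1) F a b hab) hG ⟨_, hp⟩)
    (AmbT.of_amb (amb_O_of_two _ h2) r) hp (fun _ => rfl) h

theorem good_oplus (hr : r ≠ 2) (hp2 : p ≠ 2) {m d : ℕ} (hm : 4 ≤ m) (hd : 2 ≤ d) (hdn : d ≤ m)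
    (h : H892.EP.Good p r (SpecialLinearGroup (Fin d) F)) :
    H892.EP.Good p r (POmega F (quadFormPlus m F)) := by
  obtain ⟨n, rfl⟩ : ∃ n, m = n + 3 := ⟨m - 3, by omega⟩
  rw [← coe_plusForm]
  have hG : Good (plusForm (n + 3) F) := by
    apply good_of_finite (nondeg_plusForm (n + 3) F)
    rw [Module.finrank_fintype_fun_eq_card, Fintype.card_sum, Fintype.card_fin]
    omega
  have : Finite (TypeD.M (n + 1)).Group := TypeD.finite_W (TypeD.M (n + 1)).toCoxeterSystem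
  exact good_of_MJ (rgdD_model (wplus (n + 3) F) hG (amb_plus _) (adm_plus _) (TypeD.M (n + 1)).toCoxeterSystem)
    (G1D_eq_top (wplus (n + 3) F) (toPOmega hG) (toPOmega_surjective hG) (adm_plus _)
      (TypeD.M (n + 1)).toCoxeterSystem) (JJ (n + 3) d)
    (goodMJ_oplus hp2 hG hd hdn (TypeD.M (n + 1)).toCoxeterSystem h)

end orth

end Cfsg.Agent.H537.EP
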