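import Cfsg.Agent.H537.EP.Blk
import Cfsg.Agent.TitsThree.KInstSp

/-!
# S4929, [TA-CL]: `Good` for the subgroups `M_J` of `PSp_2m`, `PΩ_(2m+1)`, `PΩ^±_2m` from `SL_d(F)`
(`J` = the first `d - 1` nodes)
-/

set_option autoImplicit false
set_option linter.unusedSectionVars false

namespace Cfsg.Agent.H537.EP

open Matrix
open CoxeterSystem Cfsg.Agent.ChevalleyStructure.CoxeterGeom Cfsg.Agent.Tits.Roots Cfsg.Agent.Tits.Core
  Cfsg.Agent.Nodes.Reps Cfsg.Agent.Nodes.BNOf Cfsg.Agent.Nodes.StabComb Cfsg.Agent.Nodes.RGDLib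
open Cfsg.Agent.Nodes
open Cfsg.Agent.TitsThree.Siegel Cfsg.Agent.TitsThree.WittFrame Cfsg.Agent.TitsThree.WittWeyl
open Cfsg.Agent.Nodes.WittRoot (XG)
open Cfsg.Agent.H156.SqPhi Cfsg.Agent.H156.SqBlk
open Cfsg.Agent.H53.HC (MJ)

universe u

section frames

variable {F : Type} [Field F] {V : Type*} [AddCommGroup V] [Module F V] {H : HForm F V}
  {K : Type u} [Group K] [Finite K] [Finite F] {p r : ℕ} [Fact p.Prime] [Fact r.Prime]

/-- type `C_n` : the subgroup of the first `d - 1` nodes -/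
theorem goodMJ_C (hp2 : p ≠ 2) {n d : ℕ} (hd : 2 ≤ d) (hdn : d ≤ n) {Fr : Frame H (Fin n)}
    (M : Cfsg.Agent.TitsThree.FrameCN.Model Fr K) (hσ : ∀ c, H.σ c = c) {W : Type*} [Group W]
    (cs : CoxeterSystem (CoxeterMatrix.B n) W)
    (hg : H892.EP.Good p r (SpecialLinearGroup (Fin d) F)) :
    H892.EP.Good p r ↥(MJ cs (TypeC.isCartan n) (WittModel.X M) (JJ n d)) := by
  obtain ⟨k, rfl⟩ : ∃ k, d = k + 2 := ⟨d - 2, by omega⟩
  exact good_MJ hp2 (ι := Fin.castLE hdn) (Fin.castLE_injective hdn) hσ M.hX M.φ (fun v g hv => M.ker v g hv)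
    (fun i j hij => hJ1C hdn i j hij) (fun x hx => hJ2C hdn hx) hg

end frames

section TypeD

open Cfsg.Agent.Nodes.TypeC (wt wt_ng)
open Cfsg.Agent.Nodes.TypeD
open Cfsg.Agent.Nodes.WittRoot (XG_swap)
open Cfsg.Agent.Nodes.WittRGDD (rg_eq)

variable {F : Type*} [Field F] {V : Type*} [AddCommGroup V] [Module F V] {H : HForm F V}
  {n k : ℕ} {W : Type*} [Group W] {cs : CoxeterSystem (TypeD.M n) W} {Fr : Frame H (Fin (n + 2))}

theorem hJ1D (hk : k + 2 ≤ n + 2) (i j : Fin (k + 2)) (hij : i ≠ j) :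
    ∃ r ∈ RootsJ cs (isCartan n) (JJ (n + 2) (k + 2)),
      WittRGDD.rg Fr r = XG Fr (Fin.castLE hk i, true) (Fin.castLE hk j, false) := by
  have hne : (Fin.castLE hk i) ≠ (Fin.castLE hk j) := fun h => hij (Fin.castLE_injective hk h)
  obtain ⟨r, hr, e⟩ := rt_of_ok (cs := cs) (a := (Fin.castLE hk i, true)) (b := (Fin.castLE hk j, false)) hne
  have hlast : r (Fin.last (n + 1)) = 0 := by
    have h1 := psumD r (Fin.last (n + 1))
    rw [e, sum_sub (k := k + 2) (by simp) (by simp) (by simp; omega), if_neg (by simp), if_neg (by simp)] at h1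
    omega
  refine ⟨r, ⟨hr, fun l hl => ?_⟩, ?_⟩
  · have hl' : k + 2 ≤ (l : ℕ) + 1 := not_lt.1 hl
    have h1 := psumD r l
    rw [e, sum_sub (k := k + 2) (by simp) (by simp) hl', hlast] at h1
    split_ifs at h1 <;> omega
  · exact rg_eq Fr (a := (Fin.castLE hk i, true)) (b := (Fin.castLE hk j, false)) hne e

theorem hJ2D (hk : k + 2 ≤ n + 2) {r : Fin (n + 2) → ℤ}
    (hr : r ∈ PosJ cs (isCartan n) (JJ (n + 2) (k + 2))) :
    ∃ i j : Fin (k + 2), i < j ∧ WittRGDD.rg Fr r = XG Fr (Fin.castLE hk i, true) (Fin.castLE hk j, false) ∧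
      WittRGDD.rg Fr (-r) = XG Fr (Fin.castLE hk j, true) (Fin.castLE hk i, false) := by
  obtain ⟨hr1, hr2, hr3⟩ := hr
  obtain ⟨a, b, hab, e⟩ := exists_of_isRoot cs hr1
  have hlast : r (Fin.last (n + 1)) = 0 := hr3 _ (by
    change ¬ (((Fin.last (n + 1) : Fin (n + 2)) : ℕ) + 1 < k + 2)
    simp; omega)
  obtain ⟨i, j, hij, hj, hc⟩ := comb (Or.inl hab) (k := k + 2) (by omega) hk (fun m hm => by
      rw [← e, psumD, hr3 m (not_lt.2 hm), hlast]
      split_ifs <;> omega) (fun m => by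
      rw [← e, psumD]
      have h5 : (0 : ℤ) ≤ r m := hr2 m
      split_ifs <;> omega)
  have hij' : (i : ℕ) < j := hij
  refine ⟨⟨i, by omega⟩, ⟨j, hj⟩, hij, ?_, ?_⟩
  · have e' : ee r = wt (i, true) + wt (j, false) := by
      rcases hc with ⟨rfl, rfl⟩ | ⟨rfl, rfl⟩
      · exact e
      · exact e.trans (add_comm _ _)
    have h1 : ((i, true) : Fin (n + 2) × Bool).1 ≠ ((j, false) : Fin (n + 2) × Bool).1 := hij.ne
    exact rg_eq Fr h1 e'
  · have e' : ee (-r) = wt (j, true) + wt (i, false) := by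
      rw [ee_neg, e]
      rcases hc with ⟨rfl, rfl⟩ | ⟨rfl, rfl⟩
      · have h1 := wt_ng (i, true)
        have h2 := wt_ng (j, false)
        change wt (i, false) = _ at h1
        change wt (j, true) = _ at h2
        rw [h1, h2]; abel
      · have h1 := wt_ng (i, true)
        have h2 := wt_ng (j, false)
        change wt (i, false) = _ at h1
        change wt (j, true) = _ at h2
        rw [h1, h2]; abel
    have h1 : ((j, true) : Fin (n + 2) × Bool).1 ≠ ((i, false) : Fin (n + 2) × Bool).1 := hij.ne'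
    exact rg_eq Fr h1 e'

end TypeD

/-! ### the groups -/

variable {F : Type} [Field F] [Fintype F] {r : ℕ} [Fact r.Prime] {p : ℕ} [Fact p.Prime]

/-- `PSp_2m(F)`, the first `d - 1` nodes -/
theorem goodMJ_psp (hp2 : p ≠ 2) {m d : ℕ} (hd : 2 ≤ d) (hdn : d ≤ m) {W : Type*} [Group W]
    (cs : CoxeterSystem (CoxeterMatrix.B m) W)
    (h : H892.EP.Good p r (SpecialLinearGroup (Fin d) F)) :
    H892.EP.Good p r ↥(MJ cs (TypeC.isCartan m) (WittModel.X (TitsThree.KInstSp.model m F)) (JJ m d)) :=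
  goodMJ_C hp2 hd hdn (TitsThree.KInstSp.model m F) (fun _ => rfl) cs h

/-- the same, any description of the set of nodes -/
theorem goodMJ_psp' (hp2 : p ≠ 2) {m d : ℕ} (hd : 2 ≤ d) (hdn : d ≤ m) {W : Type*} [Group W]
    (cs : CoxeterSystem (CoxeterMatrix.B m) W) {J : Set (Fin m)} (hJ : ∀ i : Fin m, i ∈ J ↔ (i : ℕ) < d - 1)
    (h : H892.EP.Good p r (SpecialLinearGroup (Fin d) F)) :
    H892.EP.Good p r ↥(MJ cs (TypeC.isCartan m) (WittModel.X (TitsThree.KInstSp.model m F)) J) := by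
  have h1 : J = JJ m d := by
    ext i
    rw [hJ]
    change (i : ℕ) < d - 1 ↔ (i : ℕ) + 1 < d
    omega
  rw [h1]
  exact goodMJ_psp hp2 hd hdn cs h

section orth

open QuadraticMap
open Cfsg.Agent.LieClassical Cfsg.Agent.LieClassical.OrthCore Cfsg.Agent.LieClassical.OrthTrans
open Cfsg.Agent.LieClassical.OrthSimple Cfsg.Agent.LieClassical.OrthFinite Cfsg.Agent.LieClassical.OrthForms
open Cfsg.Agent.TitsThree Cfsg.Agent.TitsThree.KSideO Cfsg.Agent.TitsThree.StdData Cfsg.Agent.TitsThree.WBridge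
open Cfsg.Agent.Nodes.WittInst Cfsg.Agent.Nodes.WittAll

/-- `PΩ⁺_2(n+3)(F)`, the first `d - 1` nodes -/
theorem goodMJ_oplus (hp2 : p ≠ 2) {n d : ℕ} (hG : Good (plusForm (n + 3) F)) (hd : 2 ≤ d) (hdn : d ≤ n + 3)
    {W : Type*} [Group W] (cs : CoxeterSystem (TypeD.M (n + 1)) W)
    (h : H892.EP.Good p r (SpecialLinearGroup (Fin d) F)) :
    H892.EP.Good p r ↥(MJ cs (TypeD.isCartan (n + 1)) (XD (wplus (n + 3) F) (toPOmega hG)) (JJ (n + 3) d)) := by
  obtain ⟨k, rfl⟩ : ∃ k, d = k + 2 := ⟨d - 2, by omega⟩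
  exact good_MJ hp2 (ι := Fin.castLE hdn) (Fin.castLE_injective hdn) (fun _ => rfl) (amb_plus (n + 3)).X_mem
    (toPOmega hG) (fun v g hv => (scalar_of_center hG (center_of_toPOmega hG hv)).imp fun _ h => h v)
    (fun i j hij => hJ1D hdn i j hij) (fun x hx => hJ2D hdn hx) h

end orth

end Cfsg.Agent.H537.EP
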